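import Cfsg.Agent.SFour64.Bad.BadFalse
import Cfsg.Agent.SFour64.Bad.Pointwise
import Cfsg.Agent.SFour64.Linear.CfgFinish

/-!
Every finite 2-group has a characteristic subgroup, between `Ω₁(Z(P))` and `Ω₁(Z(J(P)))`, normal in
every constrained group without section `S₄` having it as a Sylow 2-subgroup.
-/

set_option autoImplicit false

open Cfsg

namespace CfsgLib.SFour64

universe u

theorem wsubHyp : WsubHyp.{u} :=
  wsubHyp_of_cpivot_pointwise (fun _ _ _ _ _ _ _ p => p.false)
    (fun _ _ _ _ _ sp _ hy _ h1 h2 h3 => sp.pointwise hy h1 h2 h3)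

end CfsgLib.SFour64
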